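import Mathlib
import Cfsg.Agent.H880.RIM.InvB
import Cfsg.Agent.H880.RIM.BadQ

/-!
# S4816, layer (I), alternating case: the end (helper880)

`end_false`: `G / N` is a subgroup of `C ≀ Alt(Ω)`, `C` abelian, which maps onto `Alt(Ω)`, and all irreducible
characters of `G` over the faithful linear character `φ` of `N` have degree prime to `p`: contradiction with
`NBall p Alt(Ω)`.
-/

set_option autoImplicit false
set_option linter.unusedSectionVars false
set_option linter.style.haveILetI false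

open Cfsg

namespace Cfsg.Agent.H880.RIM

open Cfsg.Agent.Characters.Core Cfsg.Agent.Characters.Clifford Cfsg.Agent.H672
open Cfsg.Agent.H595.Triple Cfsg.Agent.H595.Central
open Cfsg.Agent.H672.RM (over_lin_iff)
open Cfsg.Agent.H586.GW (RelP)
open Cfsg.Agent.H665.RIM (NBall)
open Cfsg.Agent.H37.NX (IM)

universe u v

theorem end_false {p : ℕ} [hp : Fact p.Prime] (hIM : IM.{u} p) {G Ω : Type u} {C : Type v} [Group G] [Finite G]
    [Fintype Ω] [DecidableEq Ω] [CommGroup C] {ρ : G →* Equiv.Perm Ω} {c : G → Ω → C} {N : Subgroup G}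
    (D : KData ρ c N) (h5 : 5 ≤ Fintype.card Ω) (hpn : p ∣ Nat.card (alternatingGroup Ω))
    (h7 : 7 ≤ Fintype.card Ω ∨ ¬ 3 ∣ Nat.card ρ.ker) (φ : N →* ℂˣ) (hφ : Function.Injective φ)
    (hbad : ∀ χ : G → ℂ, IsIrrCharacter G χ → (∀ n : N, χ n = χ 1 * φ n) → ¬ p ∣ charDegree χ)
    (hNB : NBall.{u} p (alternatingGroup Ω)) : False := by
  classical
  obtain ⟨ψ, hψ, hψN, hinv⟩ := D.exists_inv h5 (h7.imp id fun h y hy => ⟨Nat.card ρ.ker, h, by
    have h1 := pow_card_eq_one' (x := (⟨y, hy⟩ : ρ.ker))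
    exact congrArg Subtype.val h1⟩) φ hφ
  have hNK : N ≤ ρ.ker := fun n hn => D.NK n hn
  have hrelN : RelP p N.subtype (lf φ) := by
    intro χ hχ hov hd
    rw [over_lin_iff N.subtype (fun z => D.cen z.2) hχ] at hov
    refine hbad χ hχ (fun n => hov n) ?_
    rwa [charDegree_lf, mul_one] at hd
  have hovψ : Over (Subgroup.inclusion hNK) ψ (lf φ) := by
    rw [over_lin_iff (Subgroup.inclusion hNK) ?_ hψ]
    · intro n
      exact hψN _ n.2
    · intro n
      rw [Subgroup.mem_center_iff]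
      intro g
      exact Subtype.ext (D.N_comm n.2 (g : G))
  haveI : N.Normal := Cfsg.Agent.H586.GW.center_normal N D.cen
  have hrel : RelP p ρ.ker.subtype ψ := Cfsg.Agent.H37.NW.relP_up N hrelN (isIrr_lf φ) ρ.ker hNK hψ hovψ
  have hin : inertia ρ.ker ψ = ⊤ := by
    rw [eq_top_iff]
    intro g _
    rw [mem_inertia_iff]
    intro n
    exact hinv g n _ rfl
  haveI : IsSimpleGroup (alternatingGroup Ω) :=
    alternatingGroup.isSimpleGroup (by rw [Nat.card_eq_fintype_card]; exact h5)
  have na : commutator (alternatingGroup Ω) = ⊤ :=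
    commutator_alternatingGroup_eq_top (by rw [Nat.card_eq_fintype_card]; exact h5)
  let f : G →* alternatingGroup Ω := ρ.codRestrict (alternatingGroup Ω) fun g =>
    Equiv.Perm.mem_alternatingGroup.2 (D.even g)
  refine bad_triple ρ.ker hψ hin hrel na hpn f ?_ ?_ hNB hIM
  · rintro ⟨σ, hσ⟩
    obtain ⟨g, hg⟩ := D.alt σ (Equiv.Perm.mem_alternatingGroup.1 hσ)
    exact ⟨g, Subtype.ext hg⟩
  · ext g
    rw [MonoidHom.mem_ker, MonoidHom.mem_ker]
    constructor
    · intro h
      exact congrArg Subtype.val h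
    · intro h
      exact Subtype.ext h

end Cfsg.Agent.H880.RIM
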